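import Mathlib.RingTheory.PicardGroup
import Mathlib.RingTheory.Flat.FaithfullyFlat.Basic
import Mathlib.RingTheory.Flat.FaithfullyFlat.Algebra
import Groth.Agent.S1156

/-!
# Lifting generators of invertible modules modulo an element

`NI R x`: every generator modulo `x` of an invertible `R`-module lifts to a generator.
`UI R x`: the only unit congruent to `1` modulo `x` is `1`.

* `UI.unique`: uniqueness of the lift;
* `NI.polynomial`: `NI B[X] X` when all invertible `B[X]`-modules are free;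
* `NI.glue`: gluing along a pullback square of surjections;
* `NI.of_faithfullyFlat`: descent along faithfully flat ring maps.
-/

set_option autoImplicit false

universe u

open TensorProduct

namespace Groth.Agent.Sga7.H515.NIAlg

section Defs

variable (R : Type u) [CommRing R] (x : R)

/-- Every generator modulo `x` of an invertible module lifts to a generator. -/
def NI : Prop := ∀ (N : Type u) [AddCommGroup N] [Module R N] [Module.Invertible R N] (n0 : N),
  (∀ n : N, ∃ (a : R) (n' : N), n = a • n0 + x • n') →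
    ∃ n : N, (∃ n' : N, n = n0 + x • n') ∧ ∀ m : N, ∃ a : R, m = a • n

/-- The only unit congruent to `1` modulo `x` is `1`. -/
def UI : Prop := ∀ f : R, IsUnit f → (∃ a, f = 1 + x * a) → f = 1

end Defs

section Basic

variable {R : Type u} [CommRing R] {x : R}

theorem bijective_of_gen {N : Type*} [AddCommGroup N] [Module R N] [Module.Invertible R N] {n : N}
    (hn : ∀ m : N, ∃ a : R, m = a • n) : Function.Bijective (LinearMap.toSpanSingleton R N n) := by
  apply Module.Invertible.bijective_of_surjective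
  intro m
  obtain ⟨a, ha⟩ := hn m
  exact ⟨a, by rw [LinearMap.toSpanSingleton_apply, ha]⟩

theorem smul_inj_of_gen {N : Type*} [AddCommGroup N] [Module R N] [Module.Invertible R N] {n : N}
    (hn : ∀ m : N, ∃ a : R, m = a • n) {a b : R} (h : a • n = b • n) : a = b :=
  (bijective_of_gen hn).1 (by simpa [LinearMap.toSpanSingleton_apply] using h)

/-- Uniqueness of generators with given reduction modulo `x`. -/
theorem UI.unique (h : UI R x) {N : Type*} [AddCommGroup N] [Module R N] [Module.Invertible R N]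
    {n n' : N} (hn : ∀ m : N, ∃ a : R, m = a • n) (hn' : ∀ m : N, ∃ a : R, m = a • n')
    (hd : ∃ m, n' = n + x • m) : n' = n := by
  obtain ⟨m, hm⟩ := hd
  obtain ⟨f, hf⟩ := hn n'
  obtain ⟨g, hg⟩ := hn' n
  obtain ⟨a, ha⟩ := hn m
  have h1 : g * f = 1 := by
    apply smul_inj_of_gen hn
    rw [mul_smul, ← hf, ← hg, one_smul]
  have h2 : f = 1 + x * a := by
    apply smul_inj_of_gen hn
    rw [← hf, hm, ha, add_smul, one_smul, mul_smul]
  have h3 := h f (IsUnit.of_mul_eq_one_right g h1) ⟨a, h2⟩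
  rw [hf, h3, one_smul]

/-- `UI` passes through ring isomorphisms. -/
theorem UI.of_ringEquiv {S : Type*} [CommRing S] (h : UI R x) (e : R ≃+* S) :
    UI S (e x) := by
  rintro f hf ⟨a, ha⟩
  have := h (e.symm f) (hf.map e.symm) ⟨e.symm a, by rw [ha]; simp⟩
  rw [← e.apply_symm_apply f, this, map_one]

theorem UI.of_ringEquiv' {S : Type*} [CommRing S] (h : UI R x) (e : R ≃+* S) (y : S) (hy : e x = y) :
    UI S y := hy ▸ h.of_ringEquiv e

end Basic

section Polynomial

open Polynomial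

variable {B : Type u} [CommRing B]

/-- Units of `B[X]`, `B` reduced, with constant coefficient one. -/
theorem ui_polynomial [IsReduced B] : UI B[X] X := by
  rintro f hf ⟨a, ha⟩
  rw [Polynomial.isUnit_iff_coeff_isUnit_isNilpotent] at hf
  ext i
  rcases Nat.eq_zero_or_pos i with rfl | hi
  · rw [ha]; simp
  · rw [(hf.2 i hi.ne').eq_zero, Polynomial.coeff_one, if_neg hi.ne']

/-- `NI B[X] X` when every invertible `B[X]`-module is free. -/
theorem ni_polynomial [Subsingleton (CommRing.Pic B[X])] : NI B[X] X := by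
  intro N _ _ _ n0 h0
  have hfree : Module.Free B[X] N := inferInstance
  obtain ⟨φ⟩ := Module.Invertible.free_iff_linearEquiv.1 hfree
  set e := φ.symm 1 with he
  have hgen : ∀ m : N, m = φ m • e := by
    intro m
    rw [he, ← map_smul, smul_eq_mul, mul_one, φ.symm_apply_apply]
  set f := φ n0 with hf
  have hu : IsUnit (f.coeff 0) := by
    obtain ⟨a, n', h⟩ := h0 e
    have h1 := congrArg φ h
    rw [map_add, map_smul, map_smul, he, φ.apply_symm_apply, ← hf] at h1
    have h2 := congrArg (fun q : B[X] => q.coeff 0) h1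
    simp only [smul_eq_mul, Polynomial.coeff_one_zero, Polynomial.coeff_add, Polynomial.mul_coeff_zero,
      Polynomial.coeff_X_zero, zero_mul, add_zero] at h2
    exact IsUnit.of_mul_eq_one_right (a.coeff 0) h2.symm
  obtain ⟨q, hq⟩ : ∃ q : B[X], Polynomial.C (f.coeff 0) = f + X * q := by
    obtain ⟨q, hq⟩ : X ∣ Polynomial.C (f.coeff 0) - f := by
      rw [Polynomial.X_dvd_iff]; simp
    exact ⟨q, by rw [← hq]; ring⟩
  refine ⟨Polynomial.C (f.coeff 0) • e, ⟨q • e, ?_⟩, fun m => ?_⟩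
  · rw [hq, add_smul, mul_smul]
    congr 1
    exact (hgen n0).symm
  · obtain ⟨v, hv⟩ := (hu.map Polynomial.C).exists_left_inv
    refine ⟨φ m * v, ?_⟩
    rw [← mul_smul, mul_assoc, hv, mul_one]
    exact hgen m

end Polynomial

section Tensor

variable {R : Type u} [CommRing R]

/-- Extension of scalars preserves generators. -/
theorem gen_map {A A' : Type*} [CommRing A] [CommRing A'] [Algebra R A] [Algebra R A'] (φ : A →ₐ[R] A')
    {N : Type*} [AddCommGroup N] [Module R N] {n : A ⊗[R] N} (hn : ∀ m : A ⊗[R] N, ∃ a : A, m = a • n) :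
    ∀ m : A' ⊗[R] N, ∃ a : A', m = a • (φ.toLinearMap.rTensor N n) := by
  have key : ∀ (a : A) (z : A ⊗[R] N), φ.toLinearMap.rTensor N (a • z) = φ a • φ.toLinearMap.rTensor N z := by
    intro a z
    induction z with
    | zero => simp
    | add y z hy hz => rw [smul_add, map_add, hy, hz, map_add, smul_add]
    | tmul b p => simp [TensorProduct.smul_tmul']
  intro m
  induction m with
  | zero => exact ⟨0, by rw [zero_smul]⟩
  | add y z hy hz =>
    obtain ⟨a, ha⟩ := hy
    obtain ⟨b, hb⟩ := hz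
    exact ⟨a + b, by rw [add_smul, ← ha, ← hb]⟩
  | tmul b p =>
    obtain ⟨c, hc⟩ := hn ((1 : A) ⊗ₜ p)
    refine ⟨b * φ c, ?_⟩
    rw [mul_smul, ← key, ← hc]
    simp [TensorProduct.smul_tmul']

theorem rTensor_smul {A A' : Type*} [CommRing A] [CommRing A'] [Algebra R A] [Algebra R A'] (φ : A →ₐ[R] A')
    {N : Type*} [AddCommGroup N] [Module R N] (a : A) (z : A ⊗[R] N) :
    φ.toLinearMap.rTensor N (a • z) = φ a • φ.toLinearMap.rTensor N z := by
  induction z with
  | zero => simp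
  | add y z hy hz => rw [smul_add, map_add, hy, hz, map_add, smul_add]
  | tmul b p => simp [TensorProduct.smul_tmul']

theorem gen_mod_map {A : Type*} [CommRing A] [Algebra R A] {x : R}
    {N : Type*} [AddCommGroup N] [Module R N] {n0 : N}
    (h0 : ∀ n : N, ∃ (a : R) (n' : N), n = a • n0 + x • n') :
    ∀ n : A ⊗[R] N, ∃ (a : A) (n' : A ⊗[R] N), n = a • ((1 : A) ⊗ₜ[R] n0) + algebraMap R A x • n' := by
  intro n
  induction n with
  | zero => exact ⟨0, 0, by simp⟩
  | add y z hy hz =>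
    obtain ⟨a, a', ha⟩ := hy
    obtain ⟨b, b', hb⟩ := hz
    refine ⟨a + b, a' + b', ?_⟩
    rw [ha, hb, add_smul, smul_add]
    abel
  | tmul b p =>
    obtain ⟨c, p', hc⟩ := h0 p
    refine ⟨b * algebraMap R A c, b ⊗ₜ p', ?_⟩
    rw [hc, TensorProduct.tmul_add, mul_smul, TensorProduct.tmul_smul, TensorProduct.tmul_smul,
      algebraMap_smul, algebraMap_smul]
    congr 1
    rw [TensorProduct.smul_tmul', TensorProduct.smul_tmul', TensorProduct.smul_tmul']
    congr 1
    simp [Algebra.smul_def, mul_comm]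

end Tensor

section Glue

variable {R A₁ A₂ A₃ : Type u} [CommRing R] [CommRing A₁] [CommRing A₂] [CommRing A₃]
  [Algebra R A₁] [Algebra R A₂] [Algebra R A₃] (g₁ : A₁ →ₐ[R] A₃) (g₂ : A₂ →ₐ[R] A₃)

/-- Auxiliary: elements of `A ⊗ N` and their images. -/
theorem linearMap_rTensor_lid {A : Type*} [CommRing A] [Algebra R A] {N : Type*} [AddCommGroup N] [Module R N]
    (n : N) : (Algebra.linearMap R A).rTensor N ((1 : R) ⊗ₜ[R] n) = (1 : A) ⊗ₜ[R] n := by
  simp

/-- Tensoring the square with a flat module: gluing of elements. -/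
theorem exists_glue (hg : ∀ a₁ a₂, g₁ a₁ = g₂ a₂ → ∃ r, algebraMap R A₁ r = a₁ ∧ algebraMap R A₂ r = a₂)
    {N : Type*} [AddCommGroup N] [Module R N] [Module.Flat R N] (n₁ : A₁ ⊗[R] N) (n₂ : A₂ ⊗[R] N)
    (h : g₁.toLinearMap.rTensor N n₁ = g₂.toLinearMap.rTensor N n₂) :
    ∃ n : N, n₁ = (1 : A₁) ⊗ₜ[R] n ∧ n₂ = (1 : A₂) ⊗ₜ[R] n := by
  let φ : R →ₗ[R] A₁ × A₂ := (Algebra.linearMap R A₁).prod (Algebra.linearMap R A₂)
  let ψ : A₁ × A₂ →ₗ[R] A₃ := g₁.toLinearMap ∘ₗ LinearMap.fst R A₁ A₂ - g₂.toLinearMap ∘ₗ LinearMap.snd R A₁ A₂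
  have hex : Function.Exact φ ψ := by
    rintro ⟨a, b⟩
    constructor
    · intro hab
      obtain ⟨r, h1, h2⟩ := hg a b (sub_eq_zero.1 hab)
      exact ⟨r, Prod.ext h1 h2⟩
    · rintro ⟨r, hr⟩
      rw [← hr]
      simp [φ, ψ]
  have hexN := Module.Flat.rTensor_exact N hex
  let z : (A₁ × A₂) ⊗[R] N := (LinearMap.inl R A₁ A₂).rTensor N n₁ + (LinearMap.inr R A₁ A₂).rTensor N n₂
  have e1 : ψ ∘ₗ LinearMap.inl R A₁ A₂ = g₁.toLinearMap := by ext a; simp [ψ]
  have e2 : ψ ∘ₗ LinearMap.inr R A₁ A₂ = -g₂.toLinearMap := by ext a; simp [ψ]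
  have hz : ψ.rTensor N z = 0 := by
    rw [map_add, ← LinearMap.comp_apply, ← LinearMap.comp_apply, ← LinearMap.rTensor_comp,
      ← LinearMap.rTensor_comp, e1, e2, LinearMap.rTensor_neg, LinearMap.neg_apply, h, add_neg_cancel]
  obtain ⟨w, hw⟩ := (hexN z).1 hz
  obtain ⟨n, rfl⟩ : ∃ n : N, w = (1 : R) ⊗ₜ[R] n :=
    ⟨TensorProduct.lid R N w, by
      rw [← TensorProduct.lid_symm_apply, LinearEquiv.symm_apply_apply]⟩
  refine ⟨n, ?_, ?_⟩
  · have h1 := congrArg ((LinearMap.fst R A₁ A₂).rTensor N) hw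
    rw [map_add, ← LinearMap.comp_apply, ← LinearMap.comp_apply, ← LinearMap.comp_apply,
      ← LinearMap.rTensor_comp, ← LinearMap.rTensor_comp, ← LinearMap.rTensor_comp,
      LinearMap.fst_comp_inl, LinearMap.fst_comp_inr, LinearMap.rTensor_zero, LinearMap.rTensor_id,
      LinearMap.id_apply, LinearMap.zero_apply, add_zero] at h1
    rw [← h1]
    simp [φ]
  · have h1 := congrArg ((LinearMap.snd R A₁ A₂).rTensor N) hw
    rw [map_add, ← LinearMap.comp_apply, ← LinearMap.comp_apply, ← LinearMap.comp_apply,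
      ← LinearMap.rTensor_comp, ← LinearMap.rTensor_comp, ← LinearMap.rTensor_comp,
      LinearMap.snd_comp_inl, LinearMap.snd_comp_inr, LinearMap.rTensor_zero, LinearMap.rTensor_id,
      LinearMap.id_apply, LinearMap.zero_apply, zero_add] at h1
    rw [← h1]
    simp [φ]

/-- Tensoring with a flat module: joint injectivity. -/
theorem eq_zero_of_glue (hi : ∀ r, algebraMap R A₁ r = 0 → algebraMap R A₂ r = 0 → r = 0)
    {N : Type*} [AddCommGroup N] [Module R N] [Module.Flat R N] (n : N)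
    (h1 : (1 : A₁) ⊗ₜ[R] n = 0) (h2 : (1 : A₂) ⊗ₜ[R] n = 0) : n = 0 := by
  let φ : R →ₗ[R] A₁ × A₂ := (Algebra.linearMap R A₁).prod (Algebra.linearMap R A₂)
  have hφ : Function.Injective φ := by
    rw [← LinearMap.ker_eq_bot, LinearMap.ker_eq_bot']
    intro r hr
    have := Prod.ext_iff.1 hr
    exact hi r this.1 this.2
  have hφN := Module.Flat.rTensor_preserves_injective_linearMap (M := N) φ hφ
  have hsplit : ∀ z : (A₁ × A₂) ⊗[R] N, (LinearMap.fst R A₁ A₂).rTensor N z = 0 →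
      (LinearMap.snd R A₁ A₂).rTensor N z = 0 → z = 0 := by
    intro z hz1 hz2
    have h3 : LinearMap.inl R A₁ A₂ ∘ₗ LinearMap.fst R A₁ A₂ + LinearMap.inr R A₁ A₂ ∘ₗ LinearMap.snd R A₁ A₂ =
        LinearMap.id := by
      ext <;> simp
    have h4 := LinearMap.congr_fun (congrArg (LinearMap.rTensor N) h3) z
    rw [LinearMap.rTensor_add, LinearMap.rTensor_comp, LinearMap.rTensor_comp, LinearMap.add_apply,
      LinearMap.comp_apply, LinearMap.comp_apply, hz1, hz2, map_zero, map_zero, add_zero,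
      LinearMap.rTensor_id, LinearMap.id_apply] at h4
    exact h4.symm
  have h5 : φ.rTensor N ((1 : R) ⊗ₜ[R] n) = 0 := by
    apply hsplit
    · rw [← LinearMap.comp_apply, ← LinearMap.rTensor_comp]
      simpa [φ] using h1
    · rw [← LinearMap.comp_apply, ← LinearMap.rTensor_comp]
      simpa [φ] using h2
  have h6 : (1 : R) ⊗ₜ[R] n = 0 := hφN (by rw [h5, map_zero])
  have h7 := congrArg (TensorProduct.lid R N) h6
  simpa using h7

/-- Gluing along a pullback square of rings. -/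
theorem NI.glue {x : R} (hi : ∀ r, algebraMap R A₁ r = 0 → algebraMap R A₂ r = 0 → r = 0)
    (hg : ∀ a₁ a₂, g₁ a₁ = g₂ a₂ → ∃ r, algebraMap R A₁ r = a₁ ∧ algebraMap R A₂ r = a₂)
    (hx : ∀ a : A₃, algebraMap R A₃ x * a = 0 → a = 0) (hU : UI A₃ (algebraMap R A₃ x))
    (hN₁ : NI A₁ (algebraMap R A₁ x)) (hN₂ : NI A₂ (algebraMap R A₂ x)) : NI R x := by
  intro N _ _ _ n0 h0
  obtain ⟨n₁, ⟨m₁, hm₁⟩, hn₁⟩ := hN₁ (A₁ ⊗[R] N) ((1 : A₁) ⊗ₜ n0) (gen_mod_map h0)
  obtain ⟨n₂, ⟨m₂, hm₂⟩, hn₂⟩ := hN₂ (A₂ ⊗[R] N) ((1 : A₂) ⊗ₜ n0) (gen_mod_map h0)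
  have i1 : g₁.toLinearMap.rTensor N n₁ = (1 : A₃) ⊗ₜ[R] n0 +
      algebraMap R A₃ x • g₁.toLinearMap.rTensor N m₁ := by
    rw [hm₁, map_add, rTensor_smul, AlgHom.commutes]
    simp
  have i2 : g₂.toLinearMap.rTensor N n₂ = (1 : A₃) ⊗ₜ[R] n0 +
      algebraMap R A₃ x • g₂.toLinearMap.rTensor N m₂ := by
    rw [hm₂, map_add, rTensor_smul, AlgHom.commutes]
    simp
  have heq : g₂.toLinearMap.rTensor N n₂ = g₁.toLinearMap.rTensor N n₁ := by
    apply hU.unique (gen_map g₁ hn₁) (gen_map g₂ hn₂)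
    refine ⟨g₂.toLinearMap.rTensor N m₂ - g₁.toLinearMap.rTensor N m₁, ?_⟩
    rw [i1, i2, smul_sub]
    abel
  obtain ⟨n, h1, h2⟩ := exists_glue g₁ g₂ hg n₁ n₂ heq.symm
  -- `x` is regular on `A₃ ⊗ N`
  have hreg : ∀ z : A₃ ⊗[R] N, algebraMap R A₃ x • z = 0 → z = 0 := by
    have hinj : Function.Injective (LinearMap.lsmul R A₃ x) := by
      rw [← LinearMap.ker_eq_bot, LinearMap.ker_eq_bot']
      intro a ha
      apply hx
      rw [← Algebra.smul_def]
      exact ha
    have hinjN := Module.Flat.rTensor_preserves_injective_linearMap (M := N) _ hinj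
    intro z hz
    apply hinjN
    rw [map_zero, ← hz]
    rw [algebraMap_smul]
    clear hz
    induction z with
    | zero => simp
    | add a b ha hb => rw [map_add, ha, hb, smul_add]
    | tmul a p => simp [TensorProduct.smul_tmul']
  have hm : g₁.toLinearMap.rTensor N m₁ = g₂.toLinearMap.rTensor N m₂ := by
    rw [← sub_eq_zero]
    apply hreg
    rw [smul_sub, sub_eq_zero]
    rw [i1, i2] at heq
    exact (add_left_cancel heq).symm
  obtain ⟨m, h3, h4⟩ := exists_glue g₁ g₂ hg m₁ m₂ hm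
  have hnm : n = n0 + x • m := by
    rw [← sub_eq_zero]
    apply eq_zero_of_glue (A₁ := A₁) (A₂ := A₂) hi
    · rw [TensorProduct.tmul_sub, TensorProduct.tmul_add, TensorProduct.tmul_smul, ← h1, ← h3, hm₁, algebraMap_smul,
        sub_self]
    · rw [TensorProduct.tmul_sub, TensorProduct.tmul_add, TensorProduct.tmul_smul, ← h2, ← h4, hm₂, algebraMap_smul,
        sub_self]
  refine ⟨n, ⟨m, hnm⟩, ?_⟩
  intro m
  obtain ⟨b, hb⟩ := hn₂ ((1 : A₂) ⊗ₜ m)
  obtain ⟨a, ha⟩ := hn₁ ((1 : A₁) ⊗ₜ m)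
  have hab : g₁ a = g₂ b := by
    apply smul_inj_of_gen (N := A₃ ⊗[R] N) (gen_map g₁ hn₁)
    rw [← rTensor_smul, ← ha]
    conv_rhs => rw [← heq, ← rTensor_smul, ← hb]
    simp
  obtain ⟨r, hr1, hr2⟩ := hg a b hab
  refine ⟨r, ?_⟩
  rw [← sub_eq_zero]
  apply eq_zero_of_glue (A₁ := A₁) (A₂ := A₂) hi
  · rw [TensorProduct.tmul_sub, TensorProduct.tmul_smul, ha, ← h1, ← algebraMap_smul A₁ r, hr1, sub_self]
  · rw [TensorProduct.tmul_sub, TensorProduct.tmul_smul, hb, ← h2, ← algebraMap_smul A₂ r, hr2, sub_self]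

end Glue

section Descent

variable {R R' : Type u} [CommRing R] [CommRing R'] [Algebra R R'] [Module.FaithfullyFlat R R']

/-- Faithfully flat descent of `NI`. -/
theorem NI.of_faithfullyFlat {x : R} (hU : UI (R' ⊗[R] R') (algebraMap R (R' ⊗[R] R') x))
    (hN : NI R' (algebraMap R R' x)) : NI R x := by
  intro N _ _ _ n0 h0
  obtain ⟨n', ⟨m', hm'⟩, hn'⟩ := hN (R' ⊗[R] N) ((1 : R') ⊗ₜ n0) (gen_mod_map h0)
  let i₁ : R' →ₐ[R] R' ⊗[R] R' := Algebra.TensorProduct.includeLeft
  let i₂ : R' →ₐ[R] R' ⊗[R] R' := Algebra.TensorProduct.includeRight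
  have e1 : i₁.toLinearMap.rTensor N n' = (1 : R' ⊗[R] R') ⊗ₜ[R] n0 +
      algebraMap R (R' ⊗[R] R') x • i₁.toLinearMap.rTensor N m' := by
    rw [hm', map_add, rTensor_smul, AlgHom.commutes]
    simp
  have e2 : i₂.toLinearMap.rTensor N n' = (1 : R' ⊗[R] R') ⊗ₜ[R] n0 +
      algebraMap R (R' ⊗[R] R') x • i₂.toLinearMap.rTensor N m' := by
    rw [hm', map_add, rTensor_smul, AlgHom.commutes]
    simp
  have heq : i₂.toLinearMap.rTensor N n' = i₁.toLinearMap.rTensor N n' := by
    apply hU.unique (gen_map i₁ hn') (gen_map i₂ hn')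
    refine ⟨i₂.toLinearMap.rTensor N m' - i₁.toLinearMap.rTensor N m', ?_⟩
    rw [e1, e2, smul_sub]
    abel
  -- transport to `R' ⊗ (R' ⊗ N)`
  have h1 : ∀ z : R' ⊗[R] N, TensorProduct.assoc R R' R' N (i₂.toLinearMap.rTensor N z) =
      TensorProduct.mk R R' (R' ⊗[R] N) 1 z := by
    intro z
    induction z with
    | zero => simp
    | add a b ha hb => rw [map_add, map_add, map_add, ha, hb]
    | tmul a p => simp [i₂]
  have h2 : ∀ z : R' ⊗[R] N, TensorProduct.assoc R R' R' N (i₁.toLinearMap.rTensor N z) =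
      LinearMap.lTensor R' (TensorProduct.mk R R' N 1) z := by
    intro z
    induction z with
    | zero => simp
    | add a b ha hb => rw [map_add, map_add, map_add, ha, hb]
    | tmul a p => simp [i₁]
  obtain ⟨n, hn⟩ := Groth.Agent.S1156.result R R' N n' (by rw [← h1, ← h2, heq])
  replace hn : n' = (1 : R') ⊗ₜ[R] n := hn.symm
  -- a criterion for membership in a submodule
  have hmem : ∀ (P : Submodule R N) (p : N), (1 : R') ⊗ₜ[R] (P.mkQ p) = 0 → p ∈ P := by
    intro P p hp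
    have h3 := Module.FaithfullyFlat.tensorProduct_mk_injective (A := R) (B := R') (N ⧸ P)
      (a₁ := P.mkQ p) (a₂ := 0) (by simpa using hp)
    simpa using h3
  refine ⟨n, ?_, ?_⟩
  · have h3 : n - n0 ∈ LinearMap.range (LinearMap.lsmul R N x) := by
      apply hmem
      have h4 : (1 : R') ⊗ₜ[R] (n - n0) = algebraMap R R' x • m' := by
        rw [TensorProduct.tmul_sub, ← hn, hm', add_sub_cancel_left]
      have h5 := congrArg (LinearMap.lTensor R' (LinearMap.range (LinearMap.lsmul R N x)).mkQ) h4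
      rw [LinearMap.lTensor_tmul] at h5
      rw [h5]
      clear h4 h5 hm' hn' hn heq e1 e2
      rw [algebraMap_smul, map_smul]
      induction m' with
      | zero => simp
      | add a b ha hb => rw [map_add, smul_add, ha, hb, add_zero]
      | tmul a p =>
        have hp : (LinearMap.range (LinearMap.lsmul R N x)).mkQ (x • p) = 0 := by
          rw [← LinearMap.mem_ker, Submodule.ker_mkQ]
          exact ⟨p, rfl⟩
        rw [LinearMap.lTensor_tmul, ← TensorProduct.tmul_smul, ← map_smul, hp, TensorProduct.tmul_zero]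
    obtain ⟨m, hm⟩ := h3
    exact ⟨m, by rw [show x • m = n - n0 from hm]; abel⟩
  · intro m
    have h3 : m ∈ Submodule.span R {n} := by
      apply hmem
      obtain ⟨a, ha⟩ := hn' ((1 : R') ⊗ₜ m)
      rw [hn] at ha
      have h5 := congrArg (LinearMap.lTensor R' (Submodule.span R {n}).mkQ) ha
      have hp : (Submodule.span R {n}).mkQ n = 0 := by
        rw [← LinearMap.mem_ker, Submodule.ker_mkQ]
        exact Submodule.mem_span_singleton_self n
      rw [LinearMap.lTensor_tmul, TensorProduct.smul_tmul', LinearMap.lTensor_tmul, hp,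
        TensorProduct.tmul_zero] at h5
      exact h5
    obtain ⟨a, ha⟩ := Submodule.mem_span_singleton.1 h3
    exact ⟨a, ha.symm⟩

end Descent

end Groth.Agent.Sga7.H515.NIAlg
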